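import Mathlib
import Cfsg.Agent.H32.NY.Scal
import Cfsg.Agent.H20.NX.Edge

/-!
# S4979, layer (I), [I-f]: permuted generators in the alternating case (helper322)

`RData`, `Scal` and `IsAlt`: either there is a PROD family (`n = 5`, `p = 3`, a block stabiliser acts on the block
with order 3), or the generators of the groups induced on the blocks can be chosen to be permuted by `H`.
-/

set_option autoImplicit false
set_option linter.unusedSectionVars false

open Cfsg
open scoped commutatorElement Pointwise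

namespace Cfsg.Agent.H32.NY.A322

open Cfsg.Agent.H322.NX Cfsg.Agent.H32.NX9 Cfsg.Agent.H32.NY.A32

open Cfsg.Agent.H32.NX9 Cfsg.Agent.H32.NY.A32 Cfsg.Agent.H37.NX Cfsg.Agent.H32.NY.A37

/-! ### homomorphisms of a two-point stabiliser -/

theorem alt_le_map_commutator {F : Type*} [Fintype F] [DecidableEq F] (h5 : 5 ≤ Nat.card F) :
    alternatingGroup F = ⁅alternatingGroup F, alternatingGroup F⁆ := by
  have h1 := commutator_alternatingGroup_eq_top h5
  have h2 : (commutator (alternatingGroup F)).map (alternatingGroup F).subtype =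
      ⁅alternatingGroup F, alternatingGroup F⁆ := by
    rw [commutator_def, Subgroup.map_commutator, ← MonoidHom.range_eq_map, Subgroup.range_subtype]
  rw [← h2, h1, ← MonoidHom.range_eq_map, Subgroup.range_subtype]

/-- a homomorphism from the stabiliser of two points to an abelian group, trivial on the kernel, is trivial -/
theorem hom_trivial {H B A : Type*} [Group H] [MulAction H B] [CommGroup A] [Finite B] (hA : IsAlt H B)
    (h7 : 7 ≤ Nat.card B) (i j : B) (M : Subgroup H) (hM : ∀ h, h ∈ M ↔ h • i = i ∧ h • j = j)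
    (f : M →* A) (hf : ∀ h : M, (∀ b : B, (h : H) • b = b) → f h = 1) (h : M) : f h = 1 := by
  classical
  obtain ⟨inst1, inst2, hA⟩ := hA
  let p : B → Prop := fun k => k ≠ i ∧ k ≠ j
  have hp : ∀ (g : M) (x : B), p (MulAction.toPerm (g : H) x) ↔ p x := by
    intro g x
    have h1 := ((hM g).1 g.2).1
    have h2 := ((hM g).1 g.2).2
    show ((g : H) • x ≠ i ∧ (g : H) • x ≠ j) ↔ (x ≠ i ∧ x ≠ j)
    constructor
    · rintro ⟨e1, e2⟩
      exact ⟨fun e => e1 (by rw [e, h1]), fun e => e2 (by rw [e, h2])⟩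
    · rintro ⟨e1, e2⟩
      exact ⟨fun e => e1 (MulAction.injective (g : H) (show (g : H) • x = (g : H) • i by rw [e, h1])),
        fun e => e2 (MulAction.injective (g : H) (show (g : H) • x = (g : H) • j by rw [e, h2]))⟩
  let g : M →* Equiv.Perm {k // p k} := MonoidHom.mk' (fun m => (MulAction.toPerm (m : H)).subtypePerm (hp m))
    fun m m' => by
      ext x
      show ((m * m' : M) : H) • (x : B) = (m : H) • ((m' : H) • (x : B))
      rw [Subgroup.coe_mul, mul_smul]
  have hcard : 5 ≤ Nat.card {k // p k} := by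
    rw [Nat.card_eq_fintype_card] at h7 ⊢
    have h1 := Fintype.card_subtype_compl p
    have h2 : Fintype.card {k // ¬ p k} ≤ 2 := by
      rw [Fintype.card_subtype]
      have h3 : (Finset.univ.filter fun k => ¬ p k) ⊆ {i, j} := by
        intro k hk
        rw [Finset.mem_filter] at hk
        rw [Finset.mem_insert, Finset.mem_singleton]
        by_contra hcon
        rw [not_or] at hcon
        exact hk.2 hcon
      exact (Finset.card_le_card h3).trans Finset.card_le_two
    have h3 := Fintype.card_subtype_le p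
    omega
  have hsign : ∀ m : M, Equiv.Perm.sign (g m) = Equiv.Perm.sign (MulAction.toPerm (m : H) : Equiv.Perm B) := by
    intro m
    refine Equiv.Perm.sign_subtypePerm _ (hp m) fun x hx => ?_
    constructor
    · rintro rfl; exact hx ((hM m).1 m.2).1
    · rintro rfl; exact hx ((hM m).1 m.2).2
  have hgalt : ∀ m : M, g m ∈ alternatingGroup {k // p k} := by
    intro m
    rw [Equiv.Perm.mem_alternatingGroup, hsign]
    have := (hA (MulAction.toPerm (m : H) : Equiv.Perm B)).2 ⟨m, fun b => rfl⟩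
    convert this
  have hrange : alternatingGroup {k // p k} ≤ g.range := by
    intro σ hσ
    have h1 : Equiv.Perm.sign (Equiv.Perm.ofSubtype σ : Equiv.Perm B) = 1 := by
      rw [Equiv.Perm.sign_ofSubtype]
      exact Equiv.Perm.mem_alternatingGroup.1 hσ
    obtain ⟨m, hm⟩ := (hA (Equiv.Perm.ofSubtype σ)).1 (by convert h1)
    have hmM : m ∈ M := by
      rw [hM, hm, hm]
      exact ⟨Equiv.Perm.ofSubtype_apply_of_not_mem σ (fun h => h.1 rfl),
        Equiv.Perm.ofSubtype_apply_of_not_mem σ (fun h => h.2 rfl)⟩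
    refine ⟨⟨m, hmM⟩, ?_⟩
    ext x
    show m • (x : B) = _
    rw [hm, Equiv.Perm.ofSubtype_apply_coe]
  have h1 : alternatingGroup {k // p k} ≤ (commutator M).map g := by
    rw [commutator_def, Subgroup.map_commutator, ← MonoidHom.range_eq_map]
    conv_lhs => rw [alt_le_map_commutator hcard]
    exact Subgroup.commutator_mono hrange hrange
  obtain ⟨d, hd, hdh⟩ := h1 (hgalt h)
  have h2 : f d = 1 := by
    have h3 : commutator M ≤ f.ker := by
      rw [commutator_def, Subgroup.commutator_le]
      intro x _ y _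
      rw [MonoidHom.mem_ker, map_commutatorElement, commutatorElement_eq_one_iff_mul_comm, mul_comm]
    exact h3 hd
  have h3 : f (h * d⁻¹) = 1 := by
    apply hf
    intro b
    have h4 : g (h * d⁻¹) = 1 := by rw [map_mul, map_inv, hdh, mul_inv_cancel]
    by_cases hb : p b
    · have h5 := congrArg (fun σ => ((σ ⟨b, hb⟩ : {k // p k}) : B)) h4
      exact h5
    · have h6 : b = i ∨ b = j := by
        by_contra hcon
        rw [not_or] at hcon
        exact hb hcon
      rcases h6 with rfl | rfl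
      · exact ((hM _).1 (h * d⁻¹).2).1
      · exact ((hM _).1 (h * d⁻¹).2).2
  rw [map_mul, map_inv, h2, inv_one, mul_one] at h3
  exact h3

variable {p q r a : ℕ} {H V B : Type*} [Group H] [Finite H] [AddCommGroup V] [Finite V]
  [DistribMulAction H V] [Finite B] [MulAction H B] {W : B → AddSubgroup V} {K N Q P : Subgroup H}
  {φ : N →* ℂˣ} {t : B → H}

variable (R : RData r a W N Q P t) (I : ImpW (V := V) p q W K N Q φ)

/-- the cocycle with values in the units -/
noncomputable def Uu (h : H) (i : B) : (ZMod (r ^ a))ˣ := (U_unit R I h i).unit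

theorem Uu_val (h : H) (i : B) : ((Uu R I h i : (ZMod (r ^ a))ˣ) : ZMod (r ^ a)) = U R h i := rfl

theorem Uu_mul (g h : H) (i : B) : Uu R I (g * h) i = Uu R I g (h • i) * Uu R I h i :=
  Units.ext (by rw [Units.val_mul, Uu_val, Uu_val, Uu_val, U_mul R I])

theorem Uu_one (i : B) : Uu R I 1 i = 1 := Units.ext (by rw [Uu_val, U_one, Units.val_one])

theorem Uu_conj (g h : H) (i : B) (hi : h • i = i) : Uu R I (g * h * g⁻¹) (g • i) = Uu R I h i :=
  Units.ext (by rw [Uu_val, Uu_val, U_conj R I g h i hi])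

theorem Uu_pow {k : H} {i : B} (hi : k • i = i) (n : ℕ) : Uu R I (k ^ n) i = Uu R I k i ^ n :=
  Units.ext (by rw [Units.val_pow_eq_pow_val, Uu_val, Uu_val, U_pow R I hi])

include I in
theorem scal_U (hS : Scal N Q P) {k : H} (hk : k ∈ Q) (i j : B) : U R k i = U R k j := by
  obtain ⟨e, he⟩ := hS k hk
  have key : ∀ i, U R k i = e := by
    intro i
    have h1 := he (t i) (R.tP i)
    have h2 : k * t i * k⁻¹ ∈ P := R.nP.conj_mem _ (R.tP i) k
    have h3 := X_N R I (mul_mem h2 (inv_mem (pow_mem (R.tP i) e))) h1 i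
    rw [X_mul R I h2 (inv_mem (pow_mem (R.tP i) e)), X_inv R I (pow_mem (R.tP i) e), X_pow R I (R.tP i),
      X_t, mul_one] at h3
    have h4 : U R k i = X R i (k * t i * k⁻¹) := by rw [U, (I.memQ k).1 hk i]
    rw [h4]
    exact add_neg_eq_zero.1 h3
  rw [key i, key j]

/-- the set of the EDGE lemma -/
structure Om (B A : Type*) where
  b : B
  a : A

include I in
theorem no_hom {A : Type*} [CommGroup A] (f : H →* A) : f = 1 := by
  ext h
  have h1 : h ∈ commutator H := by rw [I.core.perf]; trivial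
  have h3 : commutator H ≤ f.ker := by
    rw [commutator_def, Subgroup.commutator_le]
    intro x _ y _
    rw [MonoidHom.mem_ker, map_commutatorElement, commutatorElement_eq_one_iff_mul_comm, mul_comm]
  exact h3 h1

include I in
theorem three_pts : ∃ i j k : B, i ≠ j ∧ i ≠ k ∧ j ≠ k := by
  have h0 : 0 < Nat.card B := lt_of_lt_of_le (by omega) I.card
  obtain ⟨⟨i⟩, -⟩ := Nat.card_pos_iff.1 h0
  obtain ⟨j, hj, -⟩ := third I i i
  obtain ⟨k, h1, h2⟩ := third I i j
  exact ⟨i, j, k, hj, h1, h2⟩

/-- **the cocycle is a coboundary** (EDGE) -/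
theorem coboundary (e : ℕ) (hrel : ∀ (h : H) (i j : B), i ≠ j → h • i = i → h • j = j →
    Uu R I h i ^ e = Uu R I h j ^ e) :
    ∃ c : B → (ZMod (r ^ a))ˣ, ∀ (h : H) (i : B), Uu R I h i ^ e * c i = c (h • i) := by
  letI iH : MulAction H (Om B (ZMod (r ^ a))ˣ) :=
    { smul := fun h x => ⟨h • x.b, Uu R I h x.b ^ e * x.a⟩
      one_smul := fun x => by
        show Om.mk ((1 : H) • x.b) (Uu R I 1 x.b ^ e * x.a) = x
        rw [one_smul, Uu_one, one_pow, one_mul]
      mul_smul := fun g h x => by
        show Om.mk ((g * h) • x.b) (Uu R I (g * h) x.b ^ e * x.a) =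
          Om.mk (g • h • x.b) (Uu R I g (h • x.b) ^ e * (Uu R I h x.b ^ e * x.a))
        rw [mul_smul, Uu_mul, mul_pow, mul_assoc] }
  letI iA : MulAction (ZMod (r ^ a))ˣ (Om B (ZMod (r ^ a))ˣ) :=
    { smul := fun u x => ⟨x.b, u * x.a⟩
      one_smul := fun x => by
        show Om.mk x.b (1 * x.a) = x
        rw [one_mul]
      mul_smul := fun u v x => by
        show Om.mk x.b (u * v * x.a) = Om.mk x.b (u * (v * x.a))
        rw [mul_assoc] }
  have hH : ∀ (h : H) (x : Om B (ZMod (r ^ a))ˣ), h • x = ⟨h • x.b, Uu R I h x.b ^ e * x.a⟩ :=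
    fun _ _ => rfl
  have hAa : ∀ (u : (ZMod (r ^ a))ˣ) (x : Om B (ZMod (r ^ a))ˣ), u • x = ⟨x.b, u * x.a⟩ := fun _ _ => rfl
  have D : Cfsg.Agent.H20.NX.Edge.Data H (ZMod (r ^ a))ˣ (Om.b : Om B (ZMod (r ^ a))ˣ → B) :=
    { surj := fun b => ⟨⟨b, 1⟩, rfl⟩
      equiv := fun h x => rfl
      bA := fun u x => rfl
      comm := fun h u x => by
        rw [hAa, hH, hH, hAa]
        show Om.mk _ _ = Om.mk _ _
        rw [mul_left_comm]
      trans := fun x y hxy => ⟨y.a * x.a⁻¹, by
        rw [hAa]
        show Om.mk x.b _ = y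
        rw [inv_mul_cancel_right, hxy]⟩
      free := fun u x hx => by
        rw [hAa] at hx
        have h1 : u * x.a = x.a := congrArg Om.a hx
        exact mul_eq_right.1 h1
      rel := fun h x y s t hxy h1 h2 => by
        rw [hH, hAa] at h1 h2
        have e1 : h • x.b = x.b := congrArg Om.b h1
        have e2 : h • y.b = y.b := congrArg Om.b h2
        have e3 : Uu R I h x.b ^ e * x.a = s * x.a := congrArg Om.a h1
        have e4 : Uu R I h y.b ^ e * y.a = t * y.a := congrArg Om.a h2
        rw [← mul_right_cancel e3, ← mul_right_cancel e4]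
        exact hrel h _ _ hxy e1 e2
      three := I.t3
      pts := three_pts I }
  obtain ⟨f, hf1, hf2⟩ := D.edge fun g => no_hom I g
  refine ⟨fun i => (f i).a, fun h i => ?_⟩
  have h1 := hf2 h i
  rw [hH, hf1] at h1
  exact congrArg Om.a h1

/-- for `n ≥ 8` the cocycle is a coboundary -/
theorem cob_big (hA : IsAlt H B) (h7 : 7 ≤ Nat.card B) (hS : Scal N Q P) :
    ∃ c : B → (ZMod (r ^ a))ˣ, ∀ (h : H) (i : B), Uu R I h i * c i = c (h • i) := by
  obtain ⟨c, hc⟩ := coboundary R I 1 (fun h i j _ hi hj => by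
    rw [pow_one, pow_one]
    let M : Subgroup H := MulAction.stabilizer H i ⊓ MulAction.stabilizer H j
    have hM : ∀ h, h ∈ M ↔ h • i = i ∧ h • j = j := fun h => Iff.rfl
    let f : M →* (ZMod (r ^ a))ˣ := MonoidHom.mk' (fun h => Uu R I h i * (Uu R I h j)⁻¹) fun g h => by
      show Uu R I ((g : H) * h) i * (Uu R I ((g : H) * h) j)⁻¹ = _
      rw [Uu_mul, Uu_mul, ((hM h).1 h.2).1, ((hM h).1 h.2).2, mul_inv, mul_mul_mul_comm]
    have h1 := hom_trivial hA h7 i j M hM f (fun k hk => by
      show Uu R I k i * (Uu R I k j)⁻¹ = 1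
      rw [mul_inv_eq_one]
      exact Units.ext (scal_U R I hS ((I.memQ k).2 hk) i j)) ⟨h, (hM h).2 ⟨hi, hj⟩⟩
    exact mul_inv_eq_one.1 h1)
  exact ⟨c, fun h i => by rw [← hc, pow_one]⟩

end Cfsg.Agent.H32.NY.A322
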