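import Mathlib
import Cfsg.Agent.H32.NX9.Defs

/-!
# S4816, layer (I): the imprimitive situation without conditions on `q` (helper32)

`CoreW p q K N φ` is `Core2` of S4979 without the fields `ne`, `qS`, `qs`, `qN`: `V` is an elementary abelian `q`-group and
`q = p` is allowed.  `ImpW p q W K N Q φ` is `ImpC` without `cop`.
-/

set_option autoImplicit false

open Cfsg
open scoped Pointwise

namespace Cfsg.Agent.H20.NX
end Cfsg.Agent.H20.NX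

namespace Cfsg.Agent.H322.NX
end Cfsg.Agent.H322.NX

namespace Cfsg.Agent.H239.NX
end Cfsg.Agent.H239.NX

namespace Cfsg.Agent.H912.NX
end Cfsg.Agent.H912.NX

namespace Cfsg.Agent.H32.NY.A37
end Cfsg.Agent.H32.NY.A37

namespace Cfsg.Agent.H32.NY.A20
end Cfsg.Agent.H32.NY.A20

namespace Cfsg.Agent.H32.NY.A322
end Cfsg.Agent.H32.NY.A322

namespace Cfsg.Agent.H32.NY.A239
end Cfsg.Agent.H32.NY.A239

namespace Cfsg.Agent.H32.NY.A912
end Cfsg.Agent.H32.NY.A912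

namespace Cfsg.Agent.H32.NY.A32

open Cfsg.Agent.H32.NX9

/-- The core situation, `q = p` allowed. -/
structure CoreW (p q : ℕ) {H V : Type*} [Group H] [Finite H] [AddCommGroup V] [Finite V]
    [DistribMulAction H V] (K N : Subgroup H) (φ : N →* ℂˣ) : Prop where
  odd : p ≠ 2
  perf : commutator H = ⊤
  nK : K.Normal
  Kt : K ≠ ⊤
  maxK : ∀ M : Subgroup H, M.Normal → M ≠ ⊤ → M ≤ K
  simp : IsSimpleGroup (H ⧸ K)
  na : ¬ IsMulCommutative (H ⧸ K)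
  pK : ¬ p ∣ Nat.card K
  pS : p ∣ Nat.card (H ⧸ K)
  cen : N ≤ Subgroup.center H
  NK : N ≤ K
  Nne : N ≠ ⊥
  inj : Function.Injective φ
  exp : ∀ v : V, q • v = 0
  nt : Nontrivial V
  ker : ∀ h : H, (∀ v : V, h • v = v) ↔ h ∈ N
  irr : ∀ W : AddSubgroup V, (∀ h : H, ∀ w ∈ W, h • w ∈ W) → W = ⊥ ∨ W = ⊤
  P1 : ∀ v : V, ¬ p ∣ (MulAction.stabilizer H v).index
  P2 : ∀ (v : V) (χ : ↥(MulAction.stabilizer H v) → ℂ),
    IsIrrCharacter ↥(MulAction.stabilizer H v) χ →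
    (∀ n (hn : n ∈ N) (hn' : n ∈ MulAction.stabilizer H v), χ ⟨n, hn'⟩ = χ 1 * φ ⟨n, hn⟩) →
    ¬ p ∣ charDegree χ

/-- The imprimitive situation, `q = p` allowed. -/
structure ImpW (p q : ℕ) {H V B : Type*} [Group H] [Finite H] [AddCommGroup V] [Finite V]
    [DistribMulAction H V] [Finite B] [MulAction H B] (W : B → AddSubgroup V) (K N Q : Subgroup H)
    (φ : N →* ℂˣ) : Prop where
  core : CoreW (V := V) p q K N φ
  hp : p.Prime
  hq : q.Prime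
  smulW : ∀ (g : H) (i : B), g • W i = W (g • i)
  ind : iSupIndep W
  top : ⨆ i, W i = ⊤
  memQ : ∀ g : H, g ∈ Q ↔ ∀ i : B, g • i = i
  QK : Q ≤ K
  card : p + 2 ≤ Nat.card B
  lab : ∀ (Γ : Set B) (b : B), b ∈ Γ → Γ.ncard = p → ∀ T : Subgroup H, (∀ t ∈ T, t • b = b) →
    (∀ t ∈ T, ∀ c ∈ Γ, t • c ∈ Γ) → p ∣ T.index
  trans : ∀ i, ∀ a ∈ W i, ∀ b ∈ W i, a ≠ 0 → b ≠ 0 → ∃ m : H, m • i = i ∧ m • a = b
  t3 : ∀ i j k i' j' k' : B, i ≠ j → i ≠ k → j ≠ k → i' ≠ j' → i' ≠ k' → j' ≠ k' →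
    ∃ h : H, h • i = i' ∧ h • j = j' ∧ h • k = k'
  type : (Q = K ∧ IsAlt H B ∧ ((p = 3 ∧ Nat.card B = 5) ∨ 8 ≤ Nat.card B)) ∨
    (p = 3 ∧ Nat.card B = 8 ∧ Q.index = 1344)

end Cfsg.Agent.H32.NY.A32
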