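import Mathlib
import Cfsg.Agent.H32.NY.Defs
import Cfsg.Agent.H37.NW.Red
import Cfsg.Agent.H586.GW.MinChar

/-!
# S4979: basic consequences of `CoreW` (helper20)

* `mem_center` : an element centralising `H` modulo `N` is central;
* `exists_sylow_le` : every vector is fixed by a Sylow `p`-subgroup;
* `normal_char` : for `N ≤ Y ⊴ H_v` and `θ ∈ Irr(Y | φ)`: `p ∤ θ(1)` and a Sylow `p`-subgroup of `H` inside `H_v` fixes `θ`.
-/

set_option autoImplicit false
set_option linter.style.haveILetI false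
set_option linter.unusedSectionVars false

open Cfsg

namespace Cfsg.Agent.H32.NY.A20

open Cfsg.Agent.H20.NX Cfsg.Agent.H32.NX9 Cfsg.Agent.H32.NY.A32

open Cfsg.Agent.Characters.Core Cfsg.Agent.Characters.Clifford Cfsg.Agent.H672
open Cfsg.Agent.H672.RM (over_lin_iff)
open Cfsg.Agent.H586.GW Cfsg.Agent.H37.NX Cfsg.Agent.H32.NY.A37
open scoped commutatorElement

universe u

variable {p q : ℕ} {H V : Type u} [Group H] [Finite H] [AddCommGroup V] [Finite V]
  [DistribMulAction H V] {K N : Subgroup H} {φ : N →* ℂˣ}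

/-- in a perfect group an element centralising everything modulo a central subgroup is central -/
theorem mem_center_of_perfect {H : Type*} [Group H] {N : Subgroup H} (perf : commutator H = ⊤)
    (cen : N ≤ Subgroup.center H) {a : H} (ha : ∀ h : H, ⁅a, h⁆ ∈ N) : a ∈ Subgroup.center H := by
  have hz : ∀ h : H, ⁅a, h⁆ ∈ Subgroup.center H := fun h => cen (ha h)
  have hmul : ∀ x y : H, ⁅a, x * y⁆ = ⁅a, x⁆ * ⁅a, y⁆ := by
    intro x y
    have h1 : ⁅a, x * y⁆ = ⁅a, x⁆ * (x * ⁅a, y⁆ * x⁻¹) := by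
      simp only [commutatorElement_def]; group
    rw [h1, Subgroup.mem_center_iff.1 (hz y) x, mul_inv_cancel_right]
  let f : H →* H := MonoidHom.mk' (fun h => ⁅a, h⁆) hmul
  have h1 : commutator H ≤ f.ker := by
    rw [commutator_def, Subgroup.commutator_le]
    intro x _ y _
    rw [MonoidHom.mem_ker, map_commutatorElement, commutatorElement_eq_one_iff_mul_comm]
    exact (Subgroup.mem_center_iff.1 (hz x) (f y)).symm
  rw [perf] at h1
  rw [Subgroup.mem_center_iff]
  intro g
  have h2 : f g = 1 := h1 (Subgroup.mem_top g)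
  exact (commutatorElement_eq_one_iff_mul_comm.1 h2).symm

/-- an element centralising `H` modulo `N` is central -/
theorem mem_center (C : CoreW (V := V) p q K N φ) {a : H} (ha : ∀ h : H, ⁅a, h⁆ ∈ N) :
    a ∈ Subgroup.center H := mem_center_of_perfect C.perf C.cen ha

theorem center_le (C : CoreW (V := V) p q K N φ) : Subgroup.center H ≤ K := by
  refine C.maxK _ inferInstance ?_
  intro h
  apply C.Kt
  rw [eq_top_iff, ← C.perf, commutator_def, Subgroup.commutator_le]
  intro a _ b _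
  have h1 : a ∈ Subgroup.center H := by rw [h]; trivial
  rw [commutatorElement_eq_one_iff_mul_comm.2 (Subgroup.mem_center_iff.1 h1 b).symm]
  exact one_mem K

/-- a normal subgroup is in `K` or everything -/
theorem le_or_top (C : CoreW (V := V) p q K N φ) (M : Subgroup H) (hM : M.Normal) : M ≤ K ∨ M = ⊤ := by
  by_cases h : M = ⊤
  · exact Or.inr h
  · exact Or.inl (C.maxK M hM h)

theorem not_dvd_card (C : CoreW (V := V) p q K N φ) (M : Subgroup H) (hM : M ≤ K) : ¬ p ∣ Nat.card M :=
  fun h => C.pK (h.trans (Subgroup.card_dvd_of_le hM))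

section
variable [hp : Fact p.Prime]

/-- every vector is fixed by a Sylow `p`-subgroup -/
theorem exists_sylow_le (C : CoreW (V := V) p q K N φ) (v : V) :
    ∃ P : Sylow p H, (P : Subgroup H) ≤ MulAction.stabilizer H v := by
  obtain ⟨P⟩ : Nonempty (Sylow p (MulAction.stabilizer H v)) := inferInstance
  obtain ⟨S, hS⟩ := Cfsg.Agent.H37.NW.exists_sylow_map (C.P1 v) P
  refine ⟨S, ?_⟩
  rw [hS]
  exact Subgroup.map_subtype_le _

/-- `V` is covered by the fixed points of the conjugates of a `p`-subgroup -/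
theorem exists_conj_fix (C : CoreW (V := V) p q K N φ) (X : Subgroup H) (hX : IsPGroup p X) (v : V) :
    ∃ g : H, ∀ x ∈ X, (g * x * g⁻¹) • v = v := by
  obtain ⟨P, hP⟩ := exists_sylow_le C v
  obtain ⟨S, hS⟩ := hX.exists_le_sylow
  obtain ⟨g, rfl⟩ := MulAction.exists_smul_eq H S P
  refine ⟨g, fun x hx => ?_⟩
  have h1 : g * x * g⁻¹ ∈ ((g • S : Sylow p H) : Subgroup H) := by
    rw [Sylow.coe_subgroup_smul, Subgroup.mem_pointwise_smul_iff_inv_smul_mem]
    have : (MulAut.conj g)⁻¹ • (g * x * g⁻¹) = x := by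
      simp [MulAut.smul_def, mul_assoc]
    rw [this]
    exact hS hx
  exact hP h1

/-- the characters over `φ` of a normal subgroup `Y` of a stabiliser -/
theorem normal_char (C : CoreW (V := V) p q K N φ) (v : V) (Y : Subgroup H) (hNY : N ≤ Y)
    (hYv : Y ≤ MulAction.stabilizer H v)
    (hYn : ∀ g : H, g • v = v → ∀ y ∈ Y, g * y * g⁻¹ ∈ Y) {θ : Y → ℂ} (hθ : IsIrrCharacter Y θ)
    (hθN : ∀ n (hn : n ∈ N), θ ⟨n, hNY hn⟩ = θ 1 * φ ⟨n, hn⟩) :
    ¬ p ∣ charDegree θ ∧ ∃ P : Sylow p H, (P : Subgroup H) ≤ MulAction.stabilizer H v ∧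
      ∀ x ∈ P, ∀ (y : Y) (hy : x * y * x⁻¹ ∈ Y), θ ⟨x * y * x⁻¹, hy⟩ = θ y := by
  classical
  set T := MulAction.stabilizer H v with hT
  let Y' : Subgroup T := Y.subgroupOf T
  haveI hY'n : Y'.Normal := by
    constructor
    intro y hy g
    exact hYn g g.2 _ hy
  let e : Y' ≃* Y := Subgroup.subgroupOfEquivOfLe hYv
  let θ' : Y' → ℂ := θ ∘ e
  have hθ' : IsIrrCharacter Y' θ' := isIrr_comp e.toMonoidHom e.surjective hθ
  have hdeg : charDegree θ' = charDegree θ := by
    rw [Blocks.Basic.charDegree_def, Blocks.Basic.charDegree_def]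
    change ⌊(θ (e 1)).re⌋₊ = _
    rw [map_one]
  -- all characters over `θ'` have degree prime to `p`
  have hover : ∀ χ : T → ℂ, IsIrrCharacter T χ → Over Y'.subtype χ θ' → ¬ p ∣ charDegree χ := by
    intro χ hχ hov
    refine C.P2 v χ hχ ?_
    have hNT : N ≤ T := hNY.trans hYv
    let iN : N →* Y' := (e.symm.toMonoidHom).comp (Subgroup.inclusion hNY)
    have hcT : ∀ n : N, Y'.subtype (iN n) ∈ Subgroup.center T := by
      intro n
      rw [Subgroup.mem_center_iff]
      intro g
      exact Subtype.ext (Subgroup.mem_center_iff.1 (C.cen n.2) (g : H))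
    have hcY : ∀ n : N, iN n ∈ Subgroup.center Y' := by
      intro n
      rw [Subgroup.mem_center_iff]
      intro g
      exact Subtype.ext (Subgroup.mem_center_iff.1 (hcT n) g)
    have h1 : Over iN θ' (lf φ) := by
      rw [over_lin_iff iN hcY hθ']
      intro n
      have h2 : e (iN n) = ⟨n, hNY n.2⟩ := by
        change e (e.symm _) = _
        rw [e.apply_symm_apply]
        rfl
      change θ (e (iN n)) = θ (e 1) * _
      rw [h2, map_one]
      exact hθN n n.2
    have h2 : Over (Y'.subtype.comp iN) χ (lf φ) :=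
      (over_comp_iff _ _ (isIrr_isCharacter hχ) (isIrr_lf φ)).2 ⟨θ', hθ', hov, h1⟩
    rw [over_lin_iff _ hcT hχ] at h2
    intro n hn hn'
    exact h2 ⟨n, hn⟩
  have hrel : RelP p Y'.subtype θ' := fun χ hχ hov hd => hover χ hχ hov ((dvd_mul_right _ _).trans hd)
  constructor
  · obtain ⟨χ, hχ, hov⟩ := exists_over_subtype Y' hθ'
    intro hd
    refine hover χ hχ hov (dvd_trans ?_ (charDegree_dvd_of_over Y' hχ hθ' hov).1)
    rw [hdeg]
    exact hd
  · have hidx := hrel.not_dvd_index Y' hθ'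
    obtain ⟨P⟩ : Nonempty (Sylow p (inertia Y' θ')) := inferInstance
    obtain ⟨S, hS⟩ := Cfsg.Agent.H37.NW.exists_sylow_map hidx P
    obtain ⟨R, hR⟩ := Cfsg.Agent.H37.NW.exists_sylow_map (C.P1 v) S
    refine ⟨R, ?_, ?_⟩
    · rw [hR]
      exact Subgroup.map_subtype_le _
    · intro x hx y hy
      have hx' : x ∈ (R : Subgroup H) := hx
      rw [hR] at hx'
      obtain ⟨t, ht, rfl⟩ := hx'
      change t ∈ (S : Subgroup T) at ht
      rw [hS] at ht
      obtain ⟨s, -, rfl⟩ := ht
      have h3 := mem_inertia_iff.1 s.2 (e.symm y)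
      exact h3

end

end Cfsg.Agent.H32.NY.A20
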