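import Mathlib
import Cfsg.Agent.H32.NX9.RDef
import Cfsg.Agent.H32.NY.Defs

/-!
# S4979, layer (I): coordinates on the Sylow `r`-subgroup (helper322)

For `R : RData r a W N Q P t` the element `x ∈ P` acts on the block `W i` as `t i ^ (X R i x)`; `X R i (x y) = X R i x + X R i y`,
`X R (h i) (h x h⁻¹) = U R h i * X R i x`, where `U R` is a cocycle with values in the units of `ZMod (r ^ a)`.
-/

set_option autoImplicit false
set_option linter.unusedSectionVars false

open Cfsg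
open scoped commutatorElement Pointwise

namespace Cfsg.Agent.H32.NY.A322

open Cfsg.Agent.H322.NX Cfsg.Agent.H32.NX9 Cfsg.Agent.H32.NY.A32

open Cfsg.Agent.H32.NX9 Cfsg.Agent.H32.NY.A32 Cfsg.Agent.H37.NX Cfsg.Agent.H32.NY.A37

variable {p q r a : ℕ} {H V B : Type*} [Group H] [Finite H] [AddCommGroup V] [Finite V]
  [DistribMulAction H V] [Finite B] [MulAction H B] {W : B → AddSubgroup V} {K N Q P : Subgroup H}
  {φ : N →* ℂˣ} {t : B → H}

theorem smul_mem (I : ImpW (V := V) p q W K N Q φ) (g : H) {i : B} {w : V} (hw : w ∈ W i) :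
    g • w ∈ W (g • i) := by
  rw [← I.smulW]
  exact AddSubgroup.smul_mem_pointwise_smul _ _ _ hw

theorem smul_memQ (I : ImpW (V := V) p q W K N Q φ) {g : H} (hg : g ∈ Q) {i : B} {w : V}
    (hw : w ∈ W i) : g • w ∈ W i := by
  have h := smul_mem I g hw
  rwa [(I.memQ g).1 hg i] at h

theorem inv_smul_mem (I : ImpW (V := V) p q W K N Q φ) (g : H) {i : B} {w : V}
    (hw : w ∈ W (g • i)) : g⁻¹ • w ∈ W i := by
  have h := smul_mem I g⁻¹ hw
  rwa [inv_smul_smul] at h

/-- an element trivial on all blocks is in `N` -/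
theorem mem_N (I : ImpW (V := V) p q W K N Q φ) {g : H} (hg : ∀ i, ∀ w ∈ W i, g • w = w) : g ∈ N := by
  rw [← I.core.ker]
  let F : AddSubgroup V :=
    { carrier := {v | g • v = v}
      zero_mem' := smul_zero g
      add_mem' := fun {x y} hx hy => by
        show g • (x + y) = x + y
        rw [smul_add, show g • x = x from hx, show g • y = y from hy]
      neg_mem' := fun {x} hx => by
        show g • (-x) = -x
        rw [smul_neg, show g • x = x from hx] }
  have h1 : (⨆ i, W i) ≤ F := iSup_le fun i w hw => hg i w hw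
  rw [I.top] at h1
  exact fun v => h1 (AddSubgroup.mem_top v)

theorem smul_of_mem_N (I : ImpW (V := V) p q W K N Q φ) {g : H} (hg : g ∈ N) (v : V) : g • v = v :=
  (I.core.ker g).2 hg v

theorem N_le_Q (I : ImpW (V := V) p q W K N Q φ) (hW : ∀ i, W i ≠ ⊥) : N ≤ Q := by
  intro n hn
  rw [I.memQ]
  intro i
  by_contra hne
  obtain ⟨w, hw0⟩ := AddSubgroup.ne_bot_iff_exists_ne_zero.1 (hW i)
  have hw : (w : V) ∈ W i := w.2
  have h1 : (w : V) ∈ W (n • i) := by
    have := smul_mem I n hw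
    rwa [smul_of_mem_N I hn] at this
  have h2 := (I.ind i)
  have h3 : W (n • i) ≤ ⨆ (j) (_ : j ≠ i), W j := le_iSup₂_of_le (n • i) hne le_rfl
  have h4 := (disjoint_iff.1 h2).le (show (w : V) ∈ W i ⊓ ⨆ (j) (_ : j ≠ i), W j from ⟨hw, h3 h1⟩)
  exact hw0 (Subtype.ext (by simpa using h4))

/-- agreement on a block -/
def Ag (W : B → AddSubgroup V) (i : B) (x y : H) : Prop := ∀ w ∈ W i, x • w = y • w

theorem Ag.rfl' {i : B} {x : H} : Ag W i x x := fun _ _ => rfl

theorem Ag.symm {i : B} {x y : H} (h : Ag W i x y) : Ag W i y x := fun w hw => (h w hw).symm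

theorem Ag.trans {i : B} {x y z : H} (h : Ag W i x y) (h' : Ag W i y z) : Ag W i x z :=
  fun w hw => (h w hw).trans (h' w hw)

theorem Ag.mul (I : ImpW (V := V) p q W K N Q φ) {i : B} {x y x' y' : H} (h : Ag W i x y)
    (h' : Ag W i x' y') (hy : y' ∈ Q) : Ag W i (x * x') (y * y') := fun w hw => by
  rw [mul_smul, mul_smul, h' w hw, h _ (smul_memQ I hy hw)]

theorem Ag.pow (I : ImpW (V := V) p q W K N Q φ) {i : B} {x y : H} (h : Ag W i x y) (hy : y ∈ Q)
    (n : ℕ) : Ag W i (x ^ n) (y ^ n) := by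
  induction n with
  | zero => rw [pow_zero, pow_zero]; exact Ag.rfl'
  | succ n ih => rw [pow_succ, pow_succ]; exact Ag.mul I ih h hy

theorem Ag.inv (I : ImpW (V := V) p q W K N Q φ) {i : B} {x y : H} (h : Ag W i x y) (hx : x ∈ Q)
    (hy : y ∈ Q) : Ag W i x⁻¹ y⁻¹ := fun w hw => by
  have h1 := h _ (smul_memQ I (inv_mem hy) hw)
  rw [smul_inv_smul] at h1
  rw [inv_smul_eq_iff, h1]

theorem Ag.conj (I : ImpW (V := V) p q W K N Q φ) {i : B} {x y : H} (h : Ag W i x y) (g : H) :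
    Ag W (g • i) (g * x * g⁻¹) (g * y * g⁻¹) := fun w hw => by
  rw [mul_smul, mul_smul, mul_smul, mul_smul, h _ (inv_smul_mem I g hw)]

section R

variable (R : RData r a W N Q P t)

theorem PQ_mem (R : RData r a W N Q P t) {x : H} (hx : x ∈ P) : x ∈ Q := R.PQ hx

theorem neZero_ra (R : RData r a W N Q P t) : NeZero (r ^ a) := ⟨pow_ne_zero _ R.prime.ne_zero⟩

theorem Ag_pow_iff (R : RData r a W N Q P t) (i : B) (j k : ℕ) :
    Ag W i (t i ^ j) (t i ^ k) ↔ (j : ZMod (r ^ a)) = k := by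
  rw [ZMod.natCast_eq_natCast_iff]
  have key : ∀ {j k : ℕ}, j ≤ k → (Ag W i (t i ^ j) (t i ^ k) ↔ j ≡ k [MOD r ^ a]) := by
    intro j k hjk
    obtain ⟨l, rfl⟩ := Nat.exists_eq_add_of_le hjk
    rw [Nat.modEq_iff_dvd' (Nat.le_add_right _ _), Nat.add_sub_cancel_left, ← R.ord i l]
    refine forall₂_congr fun w hw => ?_
    rw [pow_add, mul_smul, eq_comm, smul_left_cancel_iff]
  rcases le_total j k with h | h
  · exact key h
  · rw [show Ag W i (t i ^ j) (t i ^ k) ↔ Ag W i (t i ^ k) (t i ^ j) from ⟨Ag.symm, Ag.symm⟩, key h]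
    exact ⟨Nat.ModEq.symm, Nat.ModEq.symm⟩

open Classical in
/-- the coordinate of `x ∈ P` on the block `i` -/
noncomputable def X (R : RData r a W N Q P t) (i : B) (x : H) : ZMod (r ^ a) :=
  if h : x ∈ P then ((Classical.choose (R.gen i x h) : ℕ) : ZMod (r ^ a)) else 0

theorem X_iff {x : H} (hx : x ∈ P) (i : B) (j : ℕ) : X R i x = (j : ZMod (r ^ a)) ↔ Ag W i x (t i ^ j) := by
  have h1 : Ag W i x (t i ^ Classical.choose (R.gen i x hx)) := Classical.choose_spec (R.gen i x hx)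
  rw [X, dif_pos hx, ← Ag_pow_iff R i]
  exact ⟨fun h => h1.trans h, fun h => h1.symm.trans h⟩

theorem X_val {x : H} (hx : x ∈ P) (i : B) : Ag W i x (t i ^ (X R i x).val) := by
  haveI := neZero_ra R
  rw [← X_iff R hx, ZMod.natCast_zmod_val]

theorem X_one (i : B) : X R i 1 = 0 := by
  rw [← Nat.cast_zero, X_iff R (one_mem P), pow_zero]; exact Ag.rfl'

theorem X_eq_zero {x : H} (hx : x ∈ P) (i : B) : X R i x = 0 ↔ ∀ w ∈ W i, x • w = w := by
  rw [← Nat.cast_zero, X_iff R hx, pow_zero]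
  exact forall₂_congr fun w _ => by rw [one_smul]

theorem X_t (i : B) : X R i (t i) = 1 := by
  rw [← Nat.cast_one, X_iff R (R.tP i), pow_one]; exact Ag.rfl'

theorem X_mul (I : ImpW (V := V) p q W K N Q φ) {x y : H} (hx : x ∈ P) (hy : y ∈ P) (i : B) :
    X R i (x * y) = X R i x + X R i y := by
  haveI := neZero_ra R
  conv_rhs => rw [← ZMod.natCast_zmod_val (X R i x), ← ZMod.natCast_zmod_val (X R i y), ← Nat.cast_add]
  rw [X_iff R (mul_mem hx hy), pow_add]
  exact Ag.mul I (X_val R hx i) (X_val R hy i) (pow_mem (R.PQ (R.tP i)) _)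

theorem X_inv (I : ImpW (V := V) p q W K N Q φ) {x : H} (hx : x ∈ P) (i : B) :
    X R i x⁻¹ = - X R i x := by
  have h := X_mul R I hx (inv_mem hx) i
  rw [mul_inv_cancel, X_one] at h
  exact eq_neg_of_add_eq_zero_right h.symm

theorem X_pow (I : ImpW (V := V) p q W K N Q φ) {x : H} (hx : x ∈ P) (i : B) (n : ℕ) :
    X R i (x ^ n) = n * X R i x := by
  induction n with
  | zero => rw [pow_zero, X_one, Nat.cast_zero, zero_mul]
  | succ n ih => rw [pow_succ, X_mul R I (pow_mem hx n) hx, ih]; push_cast; ring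

/-- the cocycle -/
noncomputable def U (R : RData r a W N Q P t) (h : H) (i : B) : ZMod (r ^ a) := X R (h • i) (h * t i * h⁻¹)

theorem X_conj (I : ImpW (V := V) p q W K N Q φ) {x : H} (hx : x ∈ P) (h : H) (i : B) :
    X R (h • i) (h * x * h⁻¹) = U R h i * X R i x := by
  haveI := neZero_ra R
  have h1 := (X_val R hx i).conj I h
  have h2 : h * t i * h⁻¹ ∈ P := R.nP.conj_mem _ (R.tP i) h
  have h3 := Ag.pow I (X_val R h2 (h • i)) (pow_mem (R.PQ (R.tP (h • i))) _) (X R i x).val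
  conv_rhs => rw [← ZMod.natCast_zmod_val (X R i x), ← ZMod.natCast_zmod_val (U R h i), ← Nat.cast_mul]
  rw [X_iff R (R.nP.conj_mem _ hx h), pow_mul]
  refine h1.trans ?_
  rw [← conj_pow]
  exact h3

theorem X_all (I : ImpW (V := V) p q W K N Q φ) {x : H} (hx : x ∈ P) (h : ∀ i, X R i x = 0) : x ∈ N :=
  mem_N I fun i => (X_eq_zero R hx i).1 (h i)

theorem X_N (I : ImpW (V := V) p q W K N Q φ) {x : H} (hx : x ∈ P) (h : x ∈ N) (i : B) : X R i x = 0 :=
  (X_eq_zero R hx i).2 fun w _ => smul_of_mem_N I h w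

theorem U_one (i : B) : U R 1 i = 1 := by
  have h : (1 : H) * t i * 1⁻¹ = t i := by group
  rw [U, h, one_smul, X_t]

theorem U_mul (I : ImpW (V := V) p q W K N Q φ) (g h : H) (i : B) :
    U R (g * h) i = U R g (h • i) * U R h i := by
  have h1 := X_conj R I (R.nP.conj_mem _ (R.tP i) h) g (h • i)
  have h2 : g * (h * t i * h⁻¹) * g⁻¹ = g * h * t i * (g * h)⁻¹ := by group
  rw [h2] at h1
  rw [U, mul_smul, h1]
  rfl

theorem U_inv (I : ImpW (V := V) p q W K N Q φ) (h : H) (i : B) : U R h⁻¹ (h • i) * U R h i = 1 := by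
  rw [← U_mul R I, inv_mul_cancel, U_one]

theorem U_unit (I : ImpW (V := V) p q W K N Q φ) (h : H) (i : B) : IsUnit (U R h i) :=
  isUnit_iff_exists_inv'.2 ⟨_, U_inv R I h i⟩

theorem U_conj (I : ImpW (V := V) p q W K N Q φ) (g h : H) (i : B) (hi : h • i = i) :
    U R (g * h * g⁻¹) (g • i) = U R h i := by
  rw [U_mul R I, U_mul R I, inv_smul_smul, hi]
  calc U R g i * U R h i * U R g⁻¹ (g • i) = (U R g⁻¹ (g • i) * U R g i) * U R h i := by ring
    _ = _ := by rw [U_inv R I, one_mul]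

theorem U_P (I : ImpW (V := V) p q W K N Q φ) {x : H} (hx : x ∈ P) (i : B) : U R x i = 1 := by
  have h1 : x * t i * x⁻¹ = ⁅x, t i⁆ * t i := by rw [commutatorElement_def]; group
  have hc : ⁅x, t i⁆ ∈ P := by
    rw [commutatorElement_def]
    exact mul_mem (mul_mem (mul_mem hx (R.tP i)) (inv_mem hx)) (inv_mem (R.tP i))
  rw [U, (I.memQ x).1 (R.PQ hx) i, h1, X_mul R I hc (R.tP i), X_N R I hc (R.comm x hx _ (R.tP i)), X_t,
    zero_add]

/-- reduction modulo `r` -/
noncomputable def red (R : RData r a W N Q P t) : ZMod (r ^ a) →+* ZMod r :=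
  ZMod.castHom (dvd_pow_self r (by have := R.ha; omega)) (ZMod r)

theorem isUnit_iff (z : ZMod (r ^ a)) : IsUnit z ↔ red R z ≠ 0 := by
  haveI := neZero_ra R
  haveI : Fact r.Prime := ⟨R.prime⟩
  have ha : a ≠ 0 := by have := R.ha; omega
  have h1 : red R z = ((z.val : ℕ) : ZMod r) := by
    conv_lhs => rw [← ZMod.natCast_zmod_val z]
    rw [map_natCast]
  rw [h1, Ne, ZMod.natCast_eq_zero_iff]
  conv_lhs => rw [← ZMod.natCast_zmod_val z]
  rw [ZMod.isUnit_iff_coprime, Nat.coprime_comm, Nat.coprime_pow_left_iff (Nat.pos_of_ne_zero ha),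
    Nat.Prime.coprime_iff_not_dvd R.prime]

/-- an `r'`-element of the units congruent to `1` mod `r` is `1` -/
theorem eq_one_of_red {u : ZMod (r ^ a)} {n : ℕ} (hn : ¬ r ∣ n) (hu : u ^ n = 1) (h1 : red R u = 1) :
    u = 1 := by
  haveI : Fact r.Prime := ⟨R.prime⟩
  have h2 : (∑ i ∈ Finset.range n, u ^ i) * (u - 1) = 0 := by rw [geom_sum_mul, hu, sub_self]
  have h3 : IsUnit (∑ i ∈ Finset.range n, u ^ i) := by
    rw [isUnit_iff R, map_sum]
    simp only [map_pow, h1, one_pow, Finset.sum_const, Finset.card_range, nsmul_eq_mul, mul_one]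
    rwa [Ne, ZMod.natCast_eq_zero_iff]
  exact sub_eq_zero.1 ((h3.mul_right_eq_zero).1 h2)

include R in
/-- the `n`-th power of an element of `Q` is in `P`, `n = |Q : P|` -/
theorem pow_relIndex_mem {k : H} (hk : k ∈ Q) : k ^ P.relIndex Q ∈ P := by
  haveI := R.nP
  have h1 : (P.subgroupOf Q).Normal := inferInstance
  have h2 := Subgroup.pow_index_mem (P.subgroupOf Q) ⟨k, hk⟩
  exact (Subgroup.mem_subgroupOf.1 h2)

theorem U_pow (I : ImpW (V := V) p q W K N Q φ) {k : H} {i : B} (hi : k • i = i) (n : ℕ) :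
    U R (k ^ n) i = U R k i ^ n := by
  induction n with
  | zero => rw [pow_zero, pow_zero, U_one]
  | succ n ih => rw [pow_succ, U_mul R I, hi, ih, pow_succ]

theorem U_Q_pow (I : ImpW (V := V) p q W K N Q φ) {k : H} (hk : k ∈ Q) (i : B) :
    U R k i ^ P.relIndex Q = 1 := by
  rw [← U_pow R I ((I.memQ k).1 hk i), U_P R I (pow_relIndex_mem R hk)]

theorem U_Q_mul (I : ImpW (V := V) p q W K N Q φ) {k l : H} (hl : l ∈ Q) (i : B) :
    U R (k * l) i = U R k i * U R l i := by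
  rw [U_mul R I, (I.memQ l).1 hl i]

/-- elements of `P` conjugated by elements of `Q` -/
theorem X_conj_Q (I : ImpW (V := V) p q W K N Q φ) {k x : H} (hk : k ∈ Q) (hx : x ∈ P) (i : B) :
    X R i (k * x * k⁻¹) = U R k i * X R i x := by
  have h := X_conj R I hx k i
  rwa [(I.memQ k).1 hk i] at h

end R

end Cfsg.Agent.H32.NY.A322
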