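import Mathlib
import Cfsg.Agent.H32.NX9.RDef
import Cfsg.Agent.H37.NX.Perm
import Cfsg.Agent.H32.NY.Defs

/-!
# S4979, layer (I): piece [I-r], the Sylow subgroup of `Q` for a good prime (helper37)
-/

set_option autoImplicit false
set_option linter.style.haveILetI false
set_option linter.unusedSectionVars false

open scoped Pointwise commutatorElement

namespace Cfsg.Agent.H32.NY.A37

open Cfsg.Agent.H37.NX Cfsg.Agent.H32.NX9 Cfsg.Agent.H32.NY.A32

open MulAction Cfsg.Agent.H32.NX9 Cfsg.Agent.H32.NY.A32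

variable {p q : ℕ} {H V B : Type*} [Group H] [Finite H] [AddCommGroup V] [Finite V] [DistribMulAction H V]
  [Finite B] [MulAction H B] {W : B → AddSubgroup V} {K N Q : Subgroup H} {φ : N →* ℂˣ}

theorem smul_mem_block (I : ImpW (V := V) p q W K N Q φ) (g : H) {i : B} {w : V} (hw : w ∈ W i) :
    g • w ∈ W (g • i) := by
  rw [← I.smulW]
  exact AddSubgroup.smul_mem_pointwise_smul w g (W i) hw

theorem smul_mem_of_Q (I : ImpW (V := V) p q W K N Q φ) {g : H} (hg : g ∈ Q) {i : B} {w : V}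
    (hw : w ∈ W i) : g • w ∈ W i := by
  have h1 := smul_mem_block I g hw
  rwa [(I.memQ g).1 hg i] at h1

theorem mem_N_of_blocks (I : ImpW (V := V) p q W K N Q φ) {g : H} (h : ∀ i, ∀ w ∈ W i, g • w = w) :
    g ∈ N := by
  rw [← I.core.ker]
  let F : AddSubgroup V :=
    { carrier := {v | g • v = v}
      add_mem' := fun {a b} ha hb => by
        change g • (a + b) = a + b
        rw [smul_add, ha, hb]
      zero_mem' := smul_zero g
      neg_mem' := fun {a} ha => by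
        change g • (-a) = -a
        rw [smul_neg, ha] }
  have h1 : ⨆ i, W i ≤ F := iSup_le fun i w hw => h i w hw
  rw [I.top] at h1
  exact fun v => h1 (AddSubgroup.mem_top v)

theorem trivial_of_N (I : ImpW (V := V) p q W K N Q φ) {g : H} (h : g ∈ N) (v : V) : g • v = v :=
  (I.core.ker g).2 h v

/-- powers of elements agreeing on a block -/
theorem pow_agree (I : ImpW (V := V) p q W K N Q φ) {x y : H} (hy : y ∈ Q) {i : B}
    (h : ∀ w ∈ W i, x • w = y • w) (n : ℕ) : ∀ w ∈ W i, x ^ n • w = y ^ n • w := by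
  induction n with
  | zero => intro w _; rw [pow_zero, pow_zero]
  | succ n ih =>
    intro w hw
    rw [pow_succ', pow_succ', mul_smul, mul_smul, ih w hw]
    exact h _ (smul_mem_of_Q I (Q.pow_mem hy n) hw)

theorem Q_normal (I : ImpW (V := V) p q W K N Q φ) : Q.Normal := by
  constructor
  intro g hg x
  rw [I.memQ]
  intro i
  rw [mul_smul, mul_smul, (I.memQ g).1 hg, smul_inv_smul]

/-- The action of `Q` on a block. -/
def blk (I : ImpW (V := V) p q W K N Q φ) (i : B) : Q →* Equiv.Perm (W i) where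
  toFun g :=
    { toFun := fun w => ⟨(g : H) • (w : V), smul_mem_of_Q I g.2 w.2⟩
      invFun := fun w => ⟨(g : H)⁻¹ • (w : V), smul_mem_of_Q I (Q.inv_mem g.2) w.2⟩
      left_inv := fun w => Subtype.ext (inv_smul_smul _ _)
      right_inv := fun w => Subtype.ext (smul_inv_smul _ _) }
  map_one' := by
    ext w
    exact one_smul _ _
  map_mul' := by
    intro a b
    ext w
    exact mul_smul _ _ _

theorem blk_apply (I : ImpW (V := V) p q W K N Q φ) (i : B) (g : Q) (w : W i) :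
    (blk I i g w : V) = (g : H) • (w : V) := rfl

theorem blk_eq_iff (I : ImpW (V := V) p q W K N Q φ) {i : B} {g h : Q} :
    blk I i g = blk I i h ↔ ∀ w ∈ W i, (g : H) • w = (h : H) • w := by
  constructor
  · intro e w hw
    exact congrArg (fun σ : Equiv.Perm (W i) => ((σ ⟨w, hw⟩ : W i) : V)) e
  · intro e
    ext w
    exact e w w.2

theorem blk_eq_one_iff (I : ImpW (V := V) p q W K N Q φ) {i : B} {g : Q} :
    blk I i g = 1 ↔ ∀ w ∈ W i, (g : H) • w = w := by
  rw [← map_one (blk I i), blk_eq_iff]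
  simp only [OneMemClass.coe_one, one_smul]

theorem blk_pow_eq_one_iff (I : ImpW (V := V) p q W K N Q φ) {i : B} {g : H} (hg : g ∈ Q) (n : ℕ) :
    blk I i ⟨g, hg⟩ ^ n = 1 ↔ ∀ w ∈ W i, g ^ n • w = w := by
  rw [← map_pow, blk_eq_one_iff]
  rfl

theorem three_le (I : ImpW (V := V) p q W K N Q φ) (i j : B) : ∃ k, k ≠ i ∧ k ≠ j := by
  classical
  haveI : Fintype B := Fintype.ofFinite B
  by_contra hcon
  push Not at hcon
  have h1 : (Finset.univ : Finset B) ⊆ {i, j} := by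
    intro k _
    rw [Finset.mem_insert, Finset.mem_singleton]
    by_cases h : k = i
    · exact Or.inl h
    · exact Or.inr (hcon k h)
  have h2 := (Finset.card_le_card h1).trans Finset.card_le_two
  rw [Finset.card_univ, ← Nat.card_eq_fintype_card] at h2
  have h3 := I.card
  have h4 := I.hp.two_le
  omega

theorem trans_blocks (I : ImpW (V := V) p q W K N Q φ) (i j : B) : ∃ h : H, h • i = j := by
  obtain ⟨k, hk, -⟩ := three_le I i i
  obtain ⟨l, hl, hlk⟩ := three_le I i k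
  obtain ⟨k', hk', -⟩ := three_le I j j
  obtain ⟨l', hl', hlk'⟩ := three_le I j k'
  obtain ⟨h, hh, -⟩ := I.t3 i k l j k' l' hk.symm hl.symm hlk.symm hk'.symm hl'.symm hlk'.symm
  exact ⟨h, hh⟩

/-- conjugation -/
theorem conj_trivial (I : ImpW (V := V) p q W K N Q φ) {x h : H} {i : B}
    (hx : ∀ w ∈ W i, x • w = w) : ∀ w ∈ W (h • i), (h * x * h⁻¹) • w = w := by
  intro w hw
  have h1 := smul_mem_block I h⁻¹ hw
  rw [inv_smul_smul] at h1
  rw [mul_smul, mul_smul, hx _ h1, smul_inv_smul]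

theorem conj_pow (h x : H) (n : ℕ) : (h * x * h⁻¹) ^ n = h * x ^ n * h⁻¹ := by
  rw [← MulAut.conj_apply, ← map_pow, MulAut.conj_apply]

theorem exists_gens (I : ImpW (V := V) p q W K N Q φ) {r : ℕ} (hr : GoodPr p r W Q) :
    ∃ (a : ℕ) (t : B → H), (∀ i, t i ∈ Q) ∧ (∀ i, ∃ k : ℕ, t i ^ r ^ k = 1) ∧ 1 ≤ a ∧
      (∀ i, ∀ x ∈ Q, (∃ k : ℕ, ∀ w ∈ W i, x ^ r ^ k • w = w) → ∃ j : ℕ, ∀ w ∈ W i, x • w = t i ^ j • w) ∧
      ∀ (i : B) (k : ℕ), (∀ w ∈ W i, t i ^ k • w = w) ↔ r ^ a ∣ k := by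
  classical
  haveI : Fact r.Prime := ⟨hr.prime⟩
  choose t₀ htQ hrel hnt hgen using hr.gen
  -- the `r`-part
  have hpart : ∀ i, ∃ t ∈ Q, (∃ k : ℕ, t ^ r ^ k = 1) ∧ ∀ w ∈ W i, t • w = t₀ i • w := by
    intro i
    obtain ⟨k, hk⟩ := hrel i
    obtain ⟨c, m, hm, hcm⟩ := Nat.exists_eq_pow_mul_and_not_dvd (orderOf_pos (t₀ i)).ne' r
      hr.prime.ne_one
    have hcop : Nat.Coprime m (r ^ k) :=
      (Nat.Coprime.pow_left k ((Nat.Prime.coprime_iff_not_dvd hr.prime).2 hm)).symm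
    obtain ⟨b, hb0, hb1⟩ := Nat.chineseRemainder hcop 0 1
    obtain ⟨d, hd⟩ := (Nat.modEq_zero_iff_dvd).1 hb0
    refine ⟨t₀ i ^ b, Q.pow_mem (htQ i) b, ⟨c, ?_⟩, ?_⟩
    · rw [← pow_mul, hd, show m * d * r ^ c = (r ^ c * m) * d by ring, ← hcm, pow_mul,
        pow_orderOf_eq_one, one_pow]
    · have h1 : orderOf (blk I i ⟨t₀ i, htQ i⟩) ∣ r ^ k := by
        rw [orderOf_dvd_iff_pow_eq_one, blk_pow_eq_one_iff]
        exact hk
      have h2 : blk I i ⟨t₀ i, htQ i⟩ ^ b = blk I i ⟨t₀ i, htQ i⟩ ^ 1 :=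
        pow_eq_pow_iff_modEq.2 (hb1.of_dvd h1)
      rw [pow_one, ← map_pow, blk_eq_iff] at h2
      exact h2
  choose t htQ' htr htag using hpart
  have hgen' : ∀ i, ∀ x ∈ Q, (∃ k : ℕ, ∀ w ∈ W i, x ^ r ^ k • w = w) →
      ∃ j : ℕ, ∀ w ∈ W i, x • w = t i ^ j • w := by
    intro i x hx hk
    obtain ⟨j, hj⟩ := hgen i x hx hk
    refine ⟨j, fun w hw => ?_⟩
    rw [hj w hw, pow_agree I (htQ i) (htag i) j w hw]
  -- the order on the block
  let o : B → ℕ := fun i => orderOf (blk I i ⟨t i, htQ' i⟩)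
  have ho : ∀ i k, (∀ w ∈ W i, t i ^ k • w = w) ↔ o i ∣ k := by
    intro i k
    rw [orderOf_dvd_iff_pow_eq_one, blk_pow_eq_one_iff]
  have hdvd : ∀ i j, o i ∣ o j := by
    intro i j
    obtain ⟨h, rfl⟩ := trans_blocks I i j
    -- `h t_i h⁻¹` is a power of `t_j` on `W j`
    obtain ⟨k, hk⟩ := htr i
    obtain ⟨m, hm⟩ := hgen' (h • i) (h * t i * h⁻¹) ((Q_normal I).conj_mem _ (htQ' i) h) ⟨k, by
      intro w _
      rw [conj_pow, hk, mul_one, mul_inv_cancel, one_smul]⟩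
    rw [← ho]
    intro w hw
    have h1 : ∀ w ∈ W (h • i), (h * t i * h⁻¹) ^ o (h • i) • w = w := by
      intro w hw
      rw [pow_agree I (Q.pow_mem (htQ' _) m) hm _ w hw, ← pow_mul, mul_comm, pow_mul]
      have h2 : ∀ w ∈ W (h • i), t (h • i) ^ o (h • i) • w = w := (ho _ _).2 dvd_rfl
      have h3 := pow_agree I (y := 1) Q.one_mem (i := h • i) (x := t (h • i) ^ o (h • i)) (by
        intro w hw
        rw [h2 w hw, one_smul]) m w hw
      rwa [one_pow, one_smul] at h3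
    have h4 := h1 (h • w) (smul_mem_block I h hw)
    rw [conj_pow, mul_smul, inv_smul_smul, mul_smul] at h4
    exact smul_left_cancel h h4
  obtain ⟨i₀⟩ : Nonempty B := by
    rw [← Finite.card_pos_iff]
    have := I.card
    have := I.hp.two_le
    omega
  obtain ⟨a, ha⟩ : ∃ a, o i₀ = r ^ a := by
    obtain ⟨k, hk⟩ := htr i₀
    have h1 : o i₀ ∣ r ^ k := by
      rw [← ho]
      intro w _
      rw [hk, one_smul]
    obtain ⟨a, -, ha⟩ := (Nat.dvd_prime_pow hr.prime).1 h1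
    exact ⟨a, ha⟩
  have hoa : ∀ i, o i = r ^ a := fun i =>
    (Nat.dvd_antisymm (hdvd i i₀) (hdvd i₀ i)).trans ha
  refine ⟨a, t, htQ', htr, ?_, hgen', fun i k => by rw [ho, hoa]⟩
  by_contra h0
  have h0' : a = 0 := by omega
  obtain ⟨w, hw, hne⟩ := hnt i₀
  apply hne
  have h1 := (ho i₀ 1).2 (by rw [hoa, h0', pow_zero]) w hw
  rw [pow_one] at h1
  rw [← htag i₀ w hw, h1]

/-- [I-r] the Sylow subgroup of `Q` for a good prime -/
theorem exists_rdata (I : ImpW (V := V) p q W K N Q φ) {r : ℕ} (hr : GoodPr p r W Q) :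
    ∃ (a : ℕ) (P : Subgroup H) (t : B → H), RData r a W N Q P t := by
  classical
  haveI : Fact r.Prime := ⟨hr.prime⟩
  obtain ⟨a, t, htQ, htr, ha, hgen, hord⟩ := exists_gens I hr
  haveI hQn := Q_normal I
  have hNn : N.Normal := by
    constructor
    intro n hn g
    rw [Subgroup.mem_center_iff.1 (I.core.cen hn) g, mul_inv_cancel_right]
    exact hn
  have hcN : ∀ n ∈ N, ∀ g : H, g * n = n * g := fun n hn g =>
    Subgroup.mem_center_iff.1 (I.core.cen hn) g
  -- elements of `Q` which are `r`-elements on all blocks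
  have hpow : ∀ i, ∀ x ∈ Q, (∃ j : ℕ, ∀ w ∈ W i, x • w = t i ^ j • w) →
      ∀ w ∈ W i, x ^ r ^ a • w = w := by
    rintro i x hx ⟨j, hj⟩
    have h1 : blk I i ⟨x, hx⟩ = blk I i ⟨t i, htQ i⟩ ^ j := by
      rw [← map_pow, blk_eq_iff]
      exact hj
    rw [← blk_pow_eq_one_iff I hx, h1, ← pow_mul, mul_comm, pow_mul,
      (blk_pow_eq_one_iff I (htQ i) (r ^ a)).2 ((hord i _).2 dvd_rfl), one_pow]
  have hmemR : ∀ x (hx : x ∈ Q), (∃ k : ℕ, x ^ r ^ k ∈ N) → ∀ i, ∃ j : ℕ, blk I i ⟨x, hx⟩ =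
      blk I i ⟨t i, htQ i⟩ ^ j := by
    rintro x hx ⟨k, hk⟩ i
    obtain ⟨j, hj⟩ := hgen i x hx ⟨k, fun w _ => trivial_of_N I hk w⟩
    refine ⟨j, ?_⟩
    rw [← map_pow, blk_eq_iff]
    exact hj
  have hback : ∀ x (hx : x ∈ Q), (∀ i, ∃ j : ℕ, blk I i ⟨x, hx⟩ = blk I i ⟨t i, htQ i⟩ ^ j) →
      x ^ r ^ a ∈ N := by
    intro x hx h
    apply mem_N_of_blocks I
    intro i
    refine hpow i x hx ?_
    obtain ⟨j, hj⟩ := h i
    rw [← map_pow, blk_eq_iff] at hj
    exact ⟨j, hj⟩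
  let R : Subgroup H :=
    { carrier := {x | x ∈ Q ∧ ∃ k : ℕ, x ^ r ^ k ∈ N}
      one_mem' := ⟨Q.one_mem, 0, by rw [pow_zero, pow_one]; exact N.one_mem⟩
      mul_mem' := by
        rintro x y ⟨hx, hx'⟩ ⟨hy, hy'⟩
        refine ⟨Q.mul_mem hx hy, a, hback _ (Q.mul_mem hx hy) fun i => ?_⟩
        obtain ⟨j, hj⟩ := hmemR x hx hx' i
        obtain ⟨k, hk⟩ := hmemR y hy hy' i
        refine ⟨j + k, ?_⟩
        rw [pow_add, ← hj, ← hk, ← map_mul]
        rfl
      inv_mem' := by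
        rintro x ⟨hx, k, hk⟩
        exact ⟨Q.inv_mem hx, k, by rw [inv_pow]; exact N.inv_mem hk⟩ }
  have hRmem : ∀ x, x ∈ R ↔ x ∈ Q ∧ ∃ k : ℕ, x ^ r ^ k ∈ N := fun _ => Iff.rfl
  have hRQ : R ≤ Q := fun x hx => hx.1
  haveI hRn : R.Normal := by
    constructor
    rintro x ⟨hx, k, hk⟩ g
    exact ⟨hQn.conj_mem x hx g, k, by rw [conj_pow]; exact hNn.conj_mem _ hk g⟩
  have hcomm : ∀ x ∈ R, ∀ y ∈ R, ⁅x, y⁆ ∈ N := by
    rintro x ⟨hx, hx'⟩ y ⟨hy, hy'⟩
    apply mem_N_of_blocks I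
    intro i
    obtain ⟨j, hj⟩ := hmemR x hx hx' i
    obtain ⟨k, hk⟩ := hmemR y hy hy' i
    have h1 : blk I i ⁅(⟨x, hx⟩ : Q), ⟨y, hy⟩⁆ = 1 := by
      rw [map_commutatorElement, hj, hk, commutatorElement_eq_one_iff_mul_comm]
      exact (Commute.refl _).pow_pow j k
    rw [blk_eq_one_iff] at h1
    exact h1
  -- `R` is nilpotent
  haveI : (N.subgroupOf R).Normal := inferInstance
  have hRnil : Group.IsNilpotent R := by
    haveI : Group.IsNilpotent (R ⧸ N.subgroupOf R) := by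
      letI : CommGroup (R ⧸ N.subgroupOf R) :=
        { (inferInstance : Group (R ⧸ N.subgroupOf R)) with
          mul_comm := by
            intro x y
            obtain ⟨x, rfl⟩ := QuotientGroup.mk'_surjective _ x
            obtain ⟨y, rfl⟩ := QuotientGroup.mk'_surjective _ y
            rw [← commutatorElement_eq_one_iff_mul_comm, ← map_commutatorElement]
            exact (QuotientGroup.eq_one_iff _).2 (hcomm x x.2 y y.2) }
      exact CommGroup.isNilpotent
    refine Subgroup.isNilpotent_of_ker_le_center (QuotientGroup.mk' (N.subgroupOf R)) ?_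
    rw [QuotientGroup.ker_mk']
    intro n hn
    rw [Subgroup.mem_center_iff]
    intro g
    exact Subtype.ext (hcN n hn g)
  obtain ⟨S⟩ : Nonempty (Sylow r R) := inferInstance
  have hSn : (S : Subgroup R).Normal := by
    have h1 := (Group.isNilpotent_of_finite_tfae (G := R)).out 0 3
    exact h1.1 hRnil r ‹_› S
  haveI hSc : (S : Subgroup R).Characteristic := Sylow.characteristic_of_normal S hSn
  let P : Subgroup H := (S : Subgroup R).map R.subtype
  have hPn : P.Normal := ConjAct.normal_of_characteristic_of_normal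
  have hPR : P ≤ R := Subgroup.map_subtype_le _
  have hPg : IsPGroup r P := S.isPGroup'.map R.subtype
  have hPall : ∀ x ∈ Q, (∃ k : ℕ, x ^ r ^ k = 1) → x ∈ P := by
    rintro x hx ⟨k, hk⟩
    have hxR : x ∈ R := ⟨hx, k, by rw [hk]; exact N.one_mem⟩
    refine ⟨⟨x, hxR⟩, ?_, rfl⟩
    refine mem_sylow_of_normalizer S (k := k) (Subtype.ext hk) ?_
    rw [Subgroup.normalizer_eq_top_iff.2 hSn]
    exact Subgroup.mem_top _
  have hPpow : ∀ x ∈ P, ∃ k : ℕ, x ^ r ^ k = 1 := by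
    intro x hx
    obtain ⟨k, hk⟩ := hPg ⟨x, hx⟩
    exact ⟨k, congrArg Subtype.val hk⟩
  refine ⟨a, P, t, hr.prime, hr.odd, ha, hPn, hPR.trans hRQ, hPg, ?_, fun x hx y hy =>
    hcomm x (hPR hx) y (hPR hy), fun i => hPall _ (htQ i) (htr i), ?_, hord, ?_⟩
  · -- the index
    obtain ⟨T⟩ : Nonempty (Sylow r Q) := inferInstance
    have hTP : (T : Subgroup Q) ≤ P.subgroupOf Q := by
      intro x hx
      obtain ⟨k, hk⟩ := T.isPGroup' ⟨x, hx⟩
      refine hPall x x.2 ⟨k, ?_⟩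
      have h1 : x ^ r ^ k = 1 := congrArg Subtype.val hk
      exact congrArg Subtype.val h1
    intro h
    exact T.not_dvd_index (h.trans (Subgroup.index_dvd_of_le hTP))
  · intro i x hx
    obtain ⟨k, hk⟩ := hPpow x hx
    exact hgen i x (hRQ (hPR hx)) ⟨k, fun w _ => by rw [hk, one_smul]⟩
  · -- semiregular
    intro i x hx w hw hw0 hxw w' hw'
    by_cases hw'0 : w' = 0
    · rw [hw'0, smul_zero]
    obtain ⟨m, hmi, hmw⟩ := I.trans i w hw w' hw' hw0 hw'0
    have hxQ := hRQ (hPR hx)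
    have hy : m⁻¹ * x * m ∈ P := by
      have := hPn.conj_mem x hx m⁻¹
      rwa [inv_inv] at this
    have hyQ := hRQ (hPR hy)
    obtain ⟨j, hj⟩ := hmemR x hxQ (hPR hx).2 i
    obtain ⟨k, hk⟩ := hmemR _ hyQ (hPR hy).2 i
    set τ := blk I i ⟨t i, htQ i⟩ with hτ
    -- same orders
    have hiff : ∀ n : ℕ, blk I i ⟨x, hxQ⟩ ^ n = 1 ↔ blk I i ⟨m⁻¹ * x * m, hyQ⟩ ^ n = 1 := by
      intro n
      have hmi' : m⁻¹ • i = i := by rw [inv_smul_eq_iff, hmi]
      rw [blk_pow_eq_one_iff, blk_pow_eq_one_iff]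
      constructor
      · intro h
        have h1 := conj_trivial I (h := m⁻¹) h
        rw [hmi'] at h1
        intro w hw
        have h2 := h1 w hw
        rw [← conj_pow, inv_inv] at h2
        exact h2
      · intro h
        have h1 := conj_trivial I (h := m) h
        rw [hmi] at h1
        intro w hw
        have h2 := h1 w hw
        rw [← conj_pow] at h2
        have h3 : m * (m⁻¹ * x * m) * m⁻¹ = x := by group
        rwa [h3] at h2
    have hoeq : orderOf (τ ^ j) = orderOf (τ ^ k) := by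
      rw [← hj, ← hk]
      apply Nat.dvd_antisymm
      · rw [orderOf_dvd_iff_pow_eq_one, hiff]
        exact pow_orderOf_eq_one _
      · rw [orderOf_dvd_iff_pow_eq_one, ← hiff]
        exact pow_orderOf_eq_one _
    rw [orderOf_pow, orderOf_pow] at hoeq
    have hτ0 : 0 < orderOf τ := orderOf_pos τ
    have hg : (orderOf τ).gcd j = (orderOf τ).gcd k := by
      have h1 := Nat.mul_div_cancel' (Nat.gcd_dvd_left (orderOf τ) j)
      have h2 := Nat.mul_div_cancel' (Nat.gcd_dvd_left (orderOf τ) k)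
      rw [← hoeq, ← h1] at h2
      rw [h1] at h2
      have h3 : 0 < orderOf τ / (orderOf τ).gcd j :=
        Nat.div_pos (Nat.le_of_dvd hτ0 (Nat.gcd_dvd_left _ _)) (Nat.gcd_pos_of_pos_left j hτ0)
      apply Nat.eq_of_mul_eq_mul_right h3
      rw [h1]
      exact h2.symm
    obtain ⟨c, hc⟩ := Nat.gcd_dvd_right (orderOf τ) k
    rw [← hg] at hc
    have hz : τ ^ k = (τ ^ j) ^ (Nat.gcdB (orderOf τ) j * (c : ℤ)) := by
      have h1 := Nat.gcd_eq_gcd_ab (orderOf τ) j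
      have h2 : (k : ℤ) = (orderOf τ : ℤ) * (Nat.gcdA (orderOf τ) j * c) +
          (j : ℤ) * (Nat.gcdB (orderOf τ) j * c) := by
        have h3 : (k : ℤ) = ((orderOf τ).gcd j : ℤ) * c := by exact_mod_cast hc
        rw [h3, h1]
        ring
      rw [← zpow_natCast τ k, h2, zpow_add, zpow_mul, zpow_natCast, pow_orderOf_eq_one, one_zpow,
        one_mul, zpow_mul, zpow_natCast]
    have hy1 : (m⁻¹ * x * m) • w = w := by
      have h1 : blk I i ⟨m⁻¹ * x * m, hyQ⟩ ⟨w, hw⟩ = ⟨w, hw⟩ := by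
        rw [hk, hz, ← hj]
        exact Equiv.Perm.zpow_apply_eq_self_of_apply_eq_self (Subtype.ext hxw) _
      exact congrArg Subtype.val h1
    rw [mul_smul, mul_smul, inv_smul_eq_iff, hmw] at hy1
    exact hy1

end Cfsg.Agent.H32.NY.A37
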