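import Mathlib
import Cfsg.Agent.H32.NY.RData

/-!
# S4816, layer (I), `AGL_3(2)`: no element of `Q` inverts `t i` (helper32)

`q = 3` and `r` divides `3 ^ e - 1` with `e` odd: if `k` inverts `T` (of order `r`), then `s = T - T⁻¹` satisfies
`s ^ (3 ^ e) = s`, so `u = s ^ ((3 ^ e - 1) / 2)` has `u ^ 2 = 1` and `k u = - u k`, and `T` is not homogeneous.
-/

set_option autoImplicit false
set_option linter.style.haveILetI false
set_option linter.unusedSectionVars false

open Cfsg
open scoped Pointwise commutatorElement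

namespace Cfsg.Agent.H32.NY.A37

theorem anti_hom {M : Type*} [AddCommGroup M] [Finite M] (h3 : ∀ x : M, (3 : ℕ) • x = 0) {r e : ℕ} (he : Odd e)
    (hre : r ∣ 3 ^ e - 1) (T T' k : AddMonoid.End M) (hT1 : T * T' = 1) (hT2 : T' * T = 1) (hTr : T ^ r = 1)
    (hk : Function.Injective k) (hkT : k * T = T' * k) (hfree : ∀ w : M, T (T w) = w → w = 0)
    (htr : ∀ w w' : M, w ≠ 0 → w' ≠ 0 → ∃ g : AddMonoid.End M, g w = w' ∧ ∃ l : ℕ, T * g = g * T ^ l)
    (w₀ : M) (hw₀ : w₀ ≠ 0) : False := by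
  classical
  have h30 : (3 : AddMonoid.End M) = 0 := by
    ext x
    have := h3 x
    change ((3 : ℕ) : AddMonoid.End M) x = 0
    rw [← nsmul_one]
    exact this
  have h10 : (1 : AddMonoid.End M) ≠ 0 := fun h => hw₀ (by
    have := congrArg (fun f : AddMonoid.End M => f w₀) h
    exact this)
  haveI : Nontrivial (AddMonoid.End M) := ⟨1, 0, h10⟩
  haveI : CharP (AddMonoid.End M) 3 := by
    obtain ⟨c, hc⟩ := CharP.exists (AddMonoid.End M)
    have h1 : c ∣ 3 := (CharP.cast_eq_zero_iff (AddMonoid.End M) c 3).1 (by exact_mod_cast h30)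
    rcases (Nat.dvd_prime Nat.prime_three).1 h1 with h2 | h2
    · subst h2
      exact absurd (Nat.cast_one.symm.trans ((CharP.cast_eq_zero_iff (AddMonoid.End M) 1 1).2 dvd_rfl)) h10
    · rwa [h2] at hc
  have hcT : Commute T T' := by rw [commute_iff_eq, hT1, hT2]
  -- `T ^ (3 ^ e) = T`
  have hpos : 1 ≤ 3 ^ e := Nat.one_le_pow _ _ (by norm_num)
  have hTe : T ^ (3 ^ e) = T := by
    obtain ⟨c, hc⟩ := hre
    have : 3 ^ e = r * c + 1 := by omega
    rw [this, pow_succ, pow_mul, hTr, one_pow, one_mul]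
  have hT'e : T' ^ (3 ^ e) = T' := by
    have h1 : T ^ (3 ^ e) * T' ^ (3 ^ e) = 1 := by rw [← hcT.mul_pow, hT1, one_pow]
    rw [hTe] at h1
    calc T' ^ (3 ^ e) = (T' * T) * T' ^ (3 ^ e) := by rw [hT2, one_mul]
      _ = T' := by rw [mul_assoc, h1, mul_one]
  set s : AddMonoid.End M := T - T' with hs
  have hse : s ^ (3 ^ e) = s := by
    haveI : Fact (Nat.Prime 3) := ⟨Nat.prime_three⟩
    rw [hs, sub_pow_char_pow_of_commute _ _ hcT, hTe, hT'e]
  have hsinj : Function.Injective s := by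
    rw [injective_iff_map_eq_zero]
    intro w hw
    apply hfree
    have h1 : T w - T' w = 0 := hw
    have h2 : T w = T' w := sub_eq_zero.1 h1
    rw [h2]
    exact congrArg (fun f : AddMonoid.End M => f w) hT1
  have hse1 : s ^ (3 ^ e - 1) = 1 := by
    ext w
    have hssurj : Function.Surjective s := Finite.surjective_of_injective hsinj
    obtain ⟨x, rfl⟩ := hssurj w
    have h1 : s ^ (3 ^ e - 1) * s = s := by
      rw [← pow_succ, Nat.sub_add_cancel hpos, hse]
    exact congrArg (fun f : AddMonoid.End M => f x) h1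
  obtain ⟨m, hm, hmodd⟩ : ∃ m : ℕ, 3 ^ e - 1 = m + m ∧ Odd m := by
    obtain ⟨c, rfl⟩ := he
    have h1 : 3 ^ (2 * c + 1) % 8 = 3 := by
      rw [pow_succ, pow_mul, Nat.mul_mod, Nat.pow_mod]
      norm_num
    clear hse hse1 hTe hT'e hpos hre
    generalize 3 ^ (2 * c + 1) = y at h1
    refine ⟨(y - 1) / 2, by omega, ?_⟩
    rw [Nat.odd_iff]
    omega
  set u : AddMonoid.End M := s ^ m with hu
  have huu : u * u = 1 := by rw [hu, ← pow_add, ← hm, hse1]
  have hkT' : k * T' = T * k := by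
    calc k * T' = (T * T') * k * T' := by rw [hT1, one_mul]
      _ = T * (T' * k) * T' := by rw [mul_assoc T T' k]
      _ = T * (k * T) * T' := by rw [hkT]
      _ = T * k := by rw [mul_assoc, mul_assoc, hT1, mul_one]
  have hks : k * s = -s * k := by
    rw [hs, mul_sub, hkT, hkT', neg_sub, sub_mul]
  have hku : k * u = -(u * k) := by
    have h1 : ∀ j : ℕ, k * s ^ j = (-s) ^ j * k := by
      intro j
      induction j with
      | zero => rw [pow_zero, pow_zero, mul_one, one_mul]
      | succ j ih => rw [pow_succ, ← mul_assoc, ih, mul_assoc, hks, ← mul_assoc, ← pow_succ]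
    rw [hu, h1 m, hmodd.neg_pow, neg_mul]
  have hkuw : ∀ w : M, u (k w) = - k (u w) := by
    intro w
    have h1 : k (u w) = -(u (k w)) := congrArg (fun f : AddMonoid.End M => f w) hku
    rw [h1, neg_neg]
  have huuw : ∀ w : M, u (u w) = w := fun w => congrArg (fun f : AddMonoid.End M => f w) huu
  -- the two eigenvectors
  obtain ⟨a, ha0, hua⟩ : ∃ a : M, a ≠ 0 ∧ u a = a := by
    by_cases h : u w₀ + w₀ = 0
    · refine ⟨k w₀, fun h' => hw₀ (hk (h'.trans (map_zero k).symm)), ?_⟩
      rw [hkuw, eq_neg_of_add_eq_zero_left h, map_neg, neg_neg]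
    · exact ⟨u w₀ + w₀, h, by rw [map_add, huuw, add_comm]⟩
  set b : M := k a with hb
  have hub : u b = -b := by rw [hb, hkuw, hua]
  have hb0 : b ≠ 0 := fun h' => ha0 (hk (h'.trans (map_zero k).symm))
  have h3x : ∀ x : M, x + x + x = 0 := fun x => by
    have := h3 x
    rwa [succ_nsmul, succ_nsmul, one_nsmul] at this
  have hbne : b ≠ -b := by
    intro h
    have h1 : b + b = 0 := by nth_rewrite 1 [h]; exact neg_add_cancel b
    have h2 := h3x b
    rw [h1, zero_add] at h2
    exact hb0 h2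
  have hab0 : a + b ≠ 0 := by
    intro h
    have h1 : a = -b := eq_neg_of_add_eq_zero_left h
    rw [h1, map_neg, hub] at hua
    exact hbne (neg_injective hua).symm
  obtain ⟨g, hg, l, hgl⟩ := htr a (a + b) ha0 hab0
  -- the submodules
  let X : M → AddSubgroup M := fun w => AddSubgroup.closure (Set.range fun j : ℕ => (T ^ j) w)
  have hXw : ∀ w, w ∈ X w := fun w => AddSubgroup.subset_closure ⟨0, by simp⟩
  have hXT : ∀ w x, x ∈ X w → T x ∈ X w := by
    intro w x hx
    have h1 : X w ≤ (X w).comap (T : M →+ M) := by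
      rw [AddSubgroup.closure_le]
      rintro _ ⟨j, rfl⟩
      refine AddSubgroup.subset_closure ⟨j + 1, ?_⟩
      change (T ^ (j + 1)) w = T ((T ^ j) w)
      rw [pow_succ']
      rfl
    exact h1 hx
  have hXTj : ∀ (j : ℕ) w x, x ∈ X w → (T ^ j) x ∈ X w := by
    intro j
    induction j with
    | zero => intro w x hx; simpa using hx
    | succ j ih =>
      intro w x hx
      rw [pow_succ']
      exact hXT w _ (ih w x hx)
  have hXmin : ∀ w (Y : AddSubgroup M), w ∈ Y → (∀ y ∈ Y, T y ∈ Y) → X w ≤ Y := by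
    intro w Y hw hY
    rw [AddSubgroup.closure_le]
    rintro _ ⟨j, rfl⟩
    change (T ^ j) w ∈ Y
    induction j with
    | zero => simpa using hw
    | succ j ih =>
      rw [pow_succ']
      exact hY _ ih
  have hr0 : ∃ c, T' = T ^ c := by
    obtain ⟨c, hc⟩ : ∃ c, T ^ (c + 1) = 1 := by
      rcases Nat.eq_zero_or_pos r with h | h
      · exfalso
        rw [h] at hre
        have h1 := Nat.eq_zero_of_zero_dvd hre
        obtain ⟨c, hc⟩ := he
        have : 3 ^ 1 ≤ 3 ^ e := Nat.pow_le_pow_right (by norm_num) (by omega)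
        omega
      · exact ⟨r - 1, by rw [Nat.sub_add_cancel h, hTr]⟩
    refine ⟨c, ?_⟩
    calc T' = T ^ (c + 1) * T' := by rw [hc, one_mul]
      _ = T ^ c := by rw [pow_succ, mul_assoc, hT1, mul_one]
  have hXs : ∀ w x, x ∈ X w → s x ∈ X w := by
    intro w x hx
    obtain ⟨c, hc⟩ := hr0
    have h1 : s x = T x - (T ^ c) x := by
      change T x - T' x = _
      rw [hc]
    rw [h1]
    exact (X w).sub_mem (hXT w x hx) (hXTj c w x hx)
  have hXu : ∀ w x, x ∈ X w → u x ∈ X w := by
    intro w x hx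
    have h1 : ∀ j : ℕ, (s ^ j) x ∈ X w := by
      intro j
      induction j with
      | zero => simpa using hx
      | succ j ih =>
        rw [pow_succ']
        exact hXs w _ ih
    exact h1 m
  -- `X a ≤ X (a + b)`
  have hbX : b ∈ X (a + b) ∧ a ∈ X (a + b) := by
    have h1 := hXu _ _ (hXw (a + b))
    rw [map_add, hua, hub] at h1
    have h2 : (a + b) + (a + -b) = -a := by
      have := h3x a
      have h4 : a + b + (a + -b) = a + a := by abel
      rw [h4]
      exact eq_neg_of_add_eq_zero_left this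
    have h3 : a ∈ X (a + b) := by
      have h5 := (X (a + b)).add_mem (hXw (a + b)) h1
      rw [h2] at h5
      exact neg_mem_iff.1 h5
    have h4 := (X (a + b)).sub_mem (hXw (a + b)) h3
    rw [add_sub_cancel_left] at h4
    exact ⟨h4, h3⟩
  have hle : X a ≤ X (a + b) := hXmin a _ hbX.2 fun y hy => hXT _ _ hy
  -- `|X (a + b)| ≤ |X a|`
  have hTg : ∀ x, T (g x) = g ((T ^ l) x) := fun x => congrArg (fun f : AddMonoid.End M => f x) hgl
  have hle2 : X (a + b) ≤ (X a).map (g : M →+ M) := by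
    apply hXmin
    · exact ⟨a, hXw a, hg⟩
    · rintro _ ⟨x, hx, rfl⟩
      exact ⟨(T ^ l) x, hXTj l _ _ hx, (hTg x).symm⟩
  have hc1 : Nat.card (X (a + b)) ≤ Nat.card ((X a).map (g : M →+ M)) :=
    Nat.card_le_card_of_injective (fun x => ⟨x.1, hle2 x.2⟩) (fun x y h => by
      have h1 := congrArg (fun z : (X a).map (g : M →+ M) => (z : M)) h
      exact Subtype.ext h1)
  have hc2 : Nat.card ((X a).map (g : M →+ M)) ≤ Nat.card (X a) :=
    Nat.card_le_card_of_surjective (fun x : X a => (⟨g x.1, x.1, x.2, rfl⟩ : (X a).map (g : M →+ M)))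
      (by rintro ⟨_, x, hx, rfl⟩; exact ⟨⟨x, hx⟩, rfl⟩)
  have heq : X a = X (a + b) := by
    apply SetLike.coe_injective
    apply Set.eq_of_subset_of_ncard_le hle
    exact hc1.trans hc2
  have hbXa : b ∈ X a := by rw [heq]; exact hbX.1
  have hcTu : T * u = u * T := by
    have h1 : Commute T s := by
      rw [hs]
      exact (Commute.refl T).sub_right hcT
    exact (h1.pow_right m).eq
  have hfix : X a ≤ (AddMonoidHom.eqLocus (u : M →+ M) (AddMonoidHom.id M)) := by
    apply hXmin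
    · exact hua
    · intro y hy
      have h1 : u y = y := hy
      change u (T y) = T y
      have h2 : T (u y) = u (T y) := congrArg (fun f : AddMonoid.End M => f y) hcTu
      rw [← h2, h1]
  have h1 : u b = b := hfix hbXa
  rw [hub] at h1
  exact hbne h1.symm

variable {p q : ℕ} {H V B : Type*} [Group H] [Finite H] [AddCommGroup V] [Finite V]
  [DistribMulAction H V] [Finite B] [MulAction H B] {W : B → AddSubgroup V} {K N Q : Subgroup H} {φ : N →* ℂˣ}

open Cfsg.Agent.H32.NX9 Cfsg.Agent.H32.NY.A32 MulAction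

/-- The endomorphism of the block `W i` given by an element fixing `i`. -/
def blkEnd (I : ImpW (V := V) p q W K N Q φ) (i : B) (g : H) (hg : g • i = i) : AddMonoid.End (W i) where
  toFun w := ⟨g • (w : V), by
    have := smul_mem_block I g w.2
    rwa [hg] at this⟩
  map_zero' := Subtype.ext (smul_zero g)
  map_add' a b := Subtype.ext (smul_add g _ _)

/-- For `q = 3` and `r` dividing `3 ^ e - 1`, `e` odd, no element of `Q` inverts `t i` on `W i`. -/
theorem ImpW.noinv (I : ImpW (V := V) p q W K N Q φ) (hq3 : q = 3) {r a e : ℕ} (he : Odd e) (hre : r ∣ 3 ^ e - 1)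
    {P : Subgroup H} {t : B → H}
    (R : RData r a W N Q P t) : ∀ i, ∀ k ∈ Q, ¬ ∀ w ∈ W i, k • t i • w = (t i)⁻¹ • k • w := by
  classical
  subst hq3
  intro i k hk hinv
  have hmi : ∀ {g : H}, g ∈ Q → g • i = i := fun hg => (I.memQ _).1 hg i
  haveI := R.nP
  set c : ℕ := r ^ (a - 1) with hc
  have hcr : c * r = r ^ a := by
    rw [hc, ← pow_succ, Nat.sub_add_cancel R.ha]
  have htP : t i ^ c ∈ P := P.pow_mem (R.tP i) c
  have htQ : t i ^ c ∈ Q := R.PQ htP
  have hti : t i ∈ Q := R.PQ (R.tP i)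
  -- `k` inverts all powers
  have hinvc : ∀ j : ℕ, ∀ w ∈ W i, k • t i ^ j • w = (t i ^ j)⁻¹ • k • w := by
    intro j
    induction j with
    | zero => intro w _; simp
    | succ j ih =>
      intro w hw
      have h1 : (t i ^ j) • w ∈ W i := smul_mem_of_Q I (Q.pow_mem hti j) hw
      have h2 : (t i ^ (j + 1))⁻¹ = (t i)⁻¹ * (t i ^ j)⁻¹ := by rw [pow_succ, mul_inv_rev]
      rw [h2, mul_smul, ← ih w hw, ← hinv _ h1, pow_succ', mul_smul]
  have hnt : ∃ w ∈ W i, w ≠ 0 := by
    by_contra hcon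
    push Not at hcon
    have h1 := (R.ord i 1).1 (fun w hw => by rw [hcon w hw, smul_zero])
    have h2 := Nat.dvd_one.1 h1
    rw [← hcr] at h2
    have := R.prime.one_lt
    have := Nat.eq_one_of_mul_eq_one_left h2
    omega
  obtain ⟨w₀, hw₀, hw₀0⟩ := hnt
  refine anti_hom (M := W i) (fun x => Subtype.ext (I.core.exp (x : V))) he hre
    (blkEnd I i (t i ^ c) (hmi htQ)) (blkEnd I i (t i ^ c)⁻¹ (hmi (Q.inv_mem htQ))) (blkEnd I i k (hmi hk))
    ?_ ?_ ?_ ?_ ?_ ?_ ?_ ⟨w₀, hw₀⟩ (fun h => hw₀0 (congrArg Subtype.val h))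
  · ext w
    exact smul_inv_smul (t i ^ c) (w : V)
  · ext w
    exact inv_smul_smul (t i ^ c) (w : V)
  · have h1 : ∀ j : ℕ, ∀ w : W i, (((blkEnd I i (t i ^ c) (hmi htQ)) ^ j) w : V) = (t i ^ c) ^ j • (w : V) := by
      intro j
      induction j with
      | zero => intro w; simp
      | succ j ih =>
        intro w
        rw [pow_succ', pow_succ', mul_smul, ← ih w]
        rfl
    ext w
    rw [h1, ← pow_mul, hcr]
    exact (R.ord i (r ^ a)).2 dvd_rfl _ w.2
  · rw [injective_iff_map_eq_zero]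
    intro w hw
    have h1 : k • (w : V) = 0 := congrArg Subtype.val hw
    exact Subtype.ext ((smul_eq_zero_iff_eq k).1 h1)
  · ext w
    exact hinvc c (w : V) w.2
  · intro w hw
    by_contra hw0
    have h2 : (t i ^ c) ^ 2 • (w : V) = w := by
      rw [pow_two, mul_smul]
      exact congrArg Subtype.val hw
    have h3 := R.free i ((t i ^ c) ^ 2) (P.pow_mem htP 2) (w : V) w.2
      (fun h => hw0 (Subtype.ext h)) h2
    have h4 : r ^ a ∣ c * 2 := by
      rw [← R.ord i]
      intro w' hw'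
      rw [pow_mul]
      exact h3 w' hw'
    rw [← hcr] at h4
    have h5 : r ∣ 2 := Nat.dvd_of_mul_dvd_mul_left (pow_pos R.prime.pos _) h4
    exact R.odd ((Nat.prime_dvd_prime_iff_eq R.prime Nat.prime_two).1 h5)
  · intro w w' hw hw'
    obtain ⟨m, hm, hmw⟩ := I.trans i (w : V) w.2 (w' : V) w'.2 (fun h => hw (Subtype.ext h))
      (fun h => hw' (Subtype.ext h))
    refine ⟨blkEnd I i m hm, Subtype.ext hmw, ?_⟩
    obtain ⟨l, hl⟩ := R.gen i (m⁻¹ * t i * m) (by
      have := R.nP.conj_mem (t i) (R.tP i) m⁻¹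
      rwa [inv_inv] at this)
    refine ⟨l, ?_⟩
    have h1 : ∀ j : ℕ, ∀ w : W i, (((blkEnd I i (t i ^ c) (hmi htQ)) ^ j) w : V) = (t i ^ c) ^ j • (w : V) := by
      intro j
      induction j with
      | zero => intro w; simp
      | succ j ih =>
        intro w
        rw [pow_succ', pow_succ', mul_smul, ← ih w]
        rfl
    ext x
    change t i ^ c • m • (x : V) = m • ((((blkEnd I i (t i ^ c) (hmi htQ)) ^ l) x : W i) : V)
    rw [h1]
    have h2 : ∀ x ∈ W i, (m⁻¹ * t i * m) ^ c • x = (t i ^ l) ^ c • x :=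
      pow_agree I (Q.pow_mem hti l) hl c
    have h3 := h2 x x.2
    have h4 : (m⁻¹ * t i * m) ^ c = m⁻¹ * t i ^ c * m := by
      have := _root_.conj_pow (i := c) (a := m⁻¹) (b := t i)
      rwa [inv_inv] at this
    rw [h4, mul_smul, mul_smul, inv_smul_eq_iff] at h3
    rw [h3, ← pow_mul, ← pow_mul, mul_comm]

end Cfsg.Agent.H32.NY.A37
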